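import Mathlib

/-!
# Sums of reciprocals of primes, index sets (helper183, for S5716, task UI)

* `le_S`, `S_le` : `log log N - 1 ≤ ∑_{p < N} 1/p ≤ 1 + (1/2) log N`;
* `exists_T` : the primes in the window `[C (1 + log n), n / 200]` not dividing `n`, `(n-1)/2`, `(n+1)/2` have a large sum of
  reciprocals;
* `exists_sets` : greedy choice of two sets of primes, far apart, with prescribed sums.
-/

set_option autoImplicit false

namespace Cfsg.Agent.H183.UI

open Finset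

/-- the sum of the reciprocals of the primes below `N` -/
noncomputable def S (N : ℕ) : ℝ := ∑ p ∈ N.primesBelow, 1 / (p : ℝ)

/-- `n ↦ 1 / n` as a homomorphism -/
noncomputable def invH : ℕ →* ℝ where
  toFun n := (n : ℝ)⁻¹
  map_one' := by simp
  map_mul' m n := by push_cast; rw [mul_inv]

theorem harmonic_real (n : ℕ) : ((harmonic n : ℚ) : ℝ) = ∑ m ∈ Finset.range n, ((m + 1 : ℕ) : ℝ)⁻¹ := by
  rw [harmonic]
  push_cast
  rfl

/-- the partial harmonic sum is bounded by the Euler product -/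
theorem harmonic_le_prod (N : ℕ) : ((harmonic (N - 1) : ℚ) : ℝ) ≤ ∏ p ∈ N.primesBelow, (1 - (p : ℝ)⁻¹)⁻¹ := by
  have h := (EulerProduct.summable_and_hasSum_smoothNumbers_prod_primesBelow_geometric (f := invH) (by
    intro p hp
    change ‖((p : ℕ) : ℝ)⁻¹‖ < 1
    rw [norm_inv, Real.norm_natCast]
    exact inv_lt_one_of_one_lt₀ (by exact_mod_cast hp.one_lt)) N).2
  rw [harmonic_real]
  have hmem : ∀ m ∈ Finset.range (N - 1), (m + 1) ∈ N.smoothNumbers := by
    intro m hm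
    rw [Finset.mem_range] at hm
    exact Nat.mem_smoothNumbers_of_lt (Nat.succ_pos m) (by omega)
  let g : Finset (N.smoothNumbers) := (Finset.range (N - 1)).attach.image (fun m => ⟨m.1 + 1, hmem m.1 m.2⟩)
  have h1 := sum_le_hasSum g (fun i _ => (by
    change (0 : ℝ) ≤ ((i : ℕ) : ℝ)⁻¹
    positivity)) h
  refine le_trans (le_of_eq ?_) h1
  rw [Finset.sum_image (by
    intro a _ b _ hab
    apply Subtype.ext
    have := congrArg Subtype.val hab
    simpa using this)]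
  rw [← Finset.sum_attach]
  rfl

/-- Mertens' lower bound -/
theorem le_S {N : ℕ} (hN : 3 ≤ N) : Real.log (Real.log N) - 1 ≤ S N := by
  have h1 := harmonic_le_prod N
  have h2 : Real.log N ≤ harmonic (N - 1) := by
    have := log_add_one_le_harmonic (N - 1)
    rwa [Nat.sub_add_cancel (by omega)] at this
  have hN1 : (1 : ℝ) < N := by exact_mod_cast (by omega : 1 < N)
  have hlog : 0 < Real.log N := Real.log_pos hN1
  have hp : ∀ p ∈ N.primesBelow, 0 < (1 - (p : ℝ)⁻¹)⁻¹ := by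
    intro p hp
    have hpp := Nat.prime_of_mem_primesBelow hp
    have : (p : ℝ)⁻¹ < 1 := inv_lt_one_of_one_lt₀ (by exact_mod_cast hpp.one_lt)
    have : 0 < 1 - (p : ℝ)⁻¹ := by linarith
    positivity
  have h3 : Real.log (Real.log N) ≤ ∑ p ∈ N.primesBelow, Real.log ((1 - (p : ℝ)⁻¹)⁻¹) := by
    rw [← Real.log_prod (fun p hp' => (hp p hp').ne')]
    exact Real.log_le_log hlog (h2.trans h1)
  have h4 : ∀ p ∈ N.primesBelow, Real.log ((1 - (p : ℝ)⁻¹)⁻¹) ≤ 1 / (p : ℝ) + (1 / ((p : ℝ) - 1) - 1 / (p : ℝ)) := by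
    intro p hp'
    have hpp := Nat.prime_of_mem_primesBelow hp'
    have hp1 : (1 : ℝ) < p := by exact_mod_cast hpp.one_lt
    have h5 := Real.log_le_sub_one_of_pos (hp p hp')
    have h6 : (1 - (p : ℝ)⁻¹)⁻¹ - 1 = 1 / ((p : ℝ) - 1) := by
      have : (p : ℝ) - 1 ≠ 0 := by linarith
      have h7 : (p : ℝ) ≠ 0 := by linarith
      have h8 : 1 - (p : ℝ)⁻¹ = ((p : ℝ) - 1) / p := by field_simp
      rw [h8, inv_div]
      field_simp
      ring
    linarith
  have h5 : ∑ p ∈ N.primesBelow, (1 / ((p : ℝ) - 1) - 1 / (p : ℝ)) ≤ 1 := by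
    have hsub : N.primesBelow ⊆ (Finset.range N).filter (fun m => 2 ≤ m) := by
      intro p hp'
      rw [Finset.mem_filter, Finset.mem_range]
      exact ⟨Nat.lt_of_mem_primesBelow hp', (Nat.prime_of_mem_primesBelow hp').two_le⟩
    have h6 : ∑ p ∈ N.primesBelow, (1 / ((p : ℝ) - 1) - 1 / (p : ℝ)) ≤
        ∑ m ∈ (Finset.range N).filter (fun m => 2 ≤ m), (1 / ((m : ℝ) - 1) - 1 / (m : ℝ)) := by
      apply Finset.sum_le_sum_of_subset_of_nonneg hsub
      intro m hm _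
      rw [Finset.mem_filter] at hm
      have : (2 : ℝ) ≤ m := by exact_mod_cast hm.2
      rw [sub_nonneg]
      apply one_div_le_one_div_of_le <;> linarith
    refine h6.trans ?_
    have h7 : ∀ M : ℕ, ∑ m ∈ (Finset.range (M + 2)).filter (fun m => 2 ≤ m), (1 / ((m : ℝ) - 1) - 1 / (m : ℝ)) =
        1 - 1 / ((M : ℝ) + 1) := by
      intro M
      induction M with
      | zero =>
        rw [show (Finset.range (0 + 2)).filter (fun m => 2 ≤ m) = ∅ by decide]
        simp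
      | succ M ih =>
        rw [show M + 1 + 2 = (M + 2) + 1 from rfl, Finset.range_add_one, Finset.filter_insert, if_pos (by omega),
          Finset.sum_insert (by simp), ih]
        push_cast
        have : (M : ℝ) + 1 ≠ 0 := by positivity
        have : (M : ℝ) + 2 ≠ 0 := by positivity
        have e1 : (M : ℝ) + 2 - 1 = M + 1 := by ring
        have e2 : (M : ℝ) + 1 + 1 = M + 2 := by ring
        rw [e1, e2]
        ring
    obtain ⟨M, rfl⟩ : ∃ M, N = M + 2 := ⟨N - 2, by omega⟩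
    rw [h7]
    have : 0 ≤ 1 / ((M : ℝ) + 1) := by positivity
    linarith
  have h6 : ∑ p ∈ N.primesBelow, Real.log ((1 - (p : ℝ)⁻¹)⁻¹) ≤ S N + 1 := by
    refine (Finset.sum_le_sum h4).trans ?_
    rw [Finset.sum_add_distrib, S]
    linarith
  linarith

/-- the trivial upper bound -/
theorem S_le {M : ℕ} (hM : 2 ≤ M) : S M ≤ 1 + (1 / 2) * Real.log M := by
  have hsub : M.primesBelow ⊆ insert 2 ((Finset.Icc 1 (M / 2)).image (fun k => 2 * k + 1)) := by
    intro p hp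
    have h1 := Nat.lt_of_mem_primesBelow hp
    have h2 := Nat.prime_of_mem_primesBelow hp
    rw [Finset.mem_insert]
    rcases h2.eq_two_or_odd with h | h
    · exact Or.inl h
    · right
      rw [Finset.mem_image]
      have := h2.two_le
      refine ⟨p / 2, ?_, by omega⟩
      rw [Finset.mem_Icc]
      omega
  have h1 : S M ≤ ∑ m ∈ (insert 2 ((Finset.Icc 1 (M / 2)).image (fun k => 2 * k + 1)) : Finset ℕ), 1 / ((m : ℕ) : ℝ) :=
    Finset.sum_le_sum_of_subset_of_nonneg hsub (fun m _ _ => by positivity)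
  have h2 : (2 : ℕ) ∉ (Finset.Icc 1 (M / 2)).image (fun k => 2 * k + 1) := by
    rw [Finset.mem_image]
    rintro ⟨k, -, hk⟩
    omega
  rw [Finset.sum_insert h2, Finset.sum_image (by intro a _ b _ h; simp only at h; omega)] at h1
  have h3 : ∑ k ∈ Finset.Icc 1 (M / 2), 1 / ((2 * k + 1 : ℕ) : ℝ) ≤ ∑ k ∈ Finset.Icc 1 (M / 2), (1 / 2) * ((k : ℝ)⁻¹) := by
    apply Finset.sum_le_sum
    intro k hk
    rw [Finset.mem_Icc] at hk
    have hk1 : (1 : ℝ) ≤ k := by exact_mod_cast hk.1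
    push_cast
    rw [show (1 / 2 : ℝ) * (k : ℝ)⁻¹ = 1 / (2 * k) by field_simp]
    apply one_div_le_one_div_of_le <;> linarith
  have h4 : ∑ k ∈ Finset.Icc 1 (M / 2), ((k : ℝ)⁻¹) ≤ 1 + Real.log M := by
    have h5 := harmonic_le_one_add_log (M / 2)
    rw [harmonic_eq_sum_Icc] at h5
    push_cast at h5
    refine h5.trans ?_
    have h6 : Real.log ((M / 2 : ℕ) : ℝ) ≤ Real.log M := by
      apply Real.log_le_log
      · have : 1 ≤ M / 2 := by omega
        exact_mod_cast this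
      · exact_mod_cast Nat.div_le_self M 2
    linarith
  rw [← Finset.mul_sum] at h3
  norm_num at h1
  have h5 : (1 : ℝ) / 2 = 2⁻¹ := by norm_num
  norm_num at h3
  linarith

/-- the admissible primes -/
structure Adm (C : ℝ) (n l : ℕ) : Prop where
  prime : l.Prime
  odd : Odd l
  ge : C * (1 + Real.log n) ≤ l
  le : 200 * l ≤ n
  nd : ¬ l ∣ n ∧ ¬ l ∣ (n - 1) / 2 ∧ ¬ l ∣ (n + 1) / 2

theorem card_primeFactors_mul_log {m n : ℕ} (hm : 0 < m) (hmn : m ≤ n) :
    (m.primeFactors.card : ℝ) * Real.log 2 ≤ Real.log n := by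
  have h1 : 2 ^ m.primeFactors.card ≤ m := by
    calc 2 ^ m.primeFactors.card ≤ ∏ p ∈ m.primeFactors, p :=
          Finset.pow_card_le_prod _ _ _ (fun p hp => (Nat.prime_of_mem_primeFactors hp).two_le)
      _ ≤ m := Nat.le_of_dvd hm (Nat.prod_primeFactors_dvd m)
  have h2 : (2 : ℝ) ^ m.primeFactors.card ≤ n := by exact_mod_cast h1.trans hmn
  have h3 := Real.log_le_log (by positivity) h2
  rwa [Real.log_pow] at h3

theorem bad_le {C : ℝ} (hC : 200 ≤ C) {n m : ℕ} (hm : 0 < m) (hmn : m ≤ n) (X : Finset ℕ)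
    (hX : ∀ p ∈ X, p.Prime) :
    ∑ p ∈ X.filter (fun p : ℕ => C * (1 + Real.log n) ≤ (p : ℝ) ∧ p ∣ m), 1 / (p : ℝ) ≤ 1 := by
  have hn1 : (1 : ℝ) ≤ n := by exact_mod_cast (by omega : 1 ≤ n)
  have hlog : 0 ≤ Real.log n := Real.log_nonneg hn1
  have hpos : 0 < C * (1 + Real.log n) := by positivity
  have h1 : ∑ p ∈ X.filter (fun p : ℕ => C * (1 + Real.log n) ≤ (p : ℝ) ∧ p ∣ m), 1 / (p : ℝ) ≤
      ∑ _p ∈ X.filter (fun p : ℕ => C * (1 + Real.log n) ≤ (p : ℝ) ∧ p ∣ m), 1 / (C * (1 + Real.log n)) := by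
    apply Finset.sum_le_sum
    intro p hp
    rw [Finset.mem_filter] at hp
    exact one_div_le_one_div_of_le hpos hp.2.1
  rw [Finset.sum_const, nsmul_eq_mul] at h1
  have h2 : (X.filter (fun p : ℕ => C * (1 + Real.log n) ≤ (p : ℝ) ∧ p ∣ m)).card ≤ m.primeFactors.card := by
    apply Finset.card_le_card
    intro p hp
    rw [Finset.mem_filter] at hp
    exact Nat.mem_primeFactors.2 ⟨hX p hp.1, hp.2.2, by omega⟩
  have h3 := card_primeFactors_mul_log hm hmn
  have hl2 : (1 / 2 : ℝ) ≤ Real.log 2 := by have := Real.log_two_gt_d9; linarith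
  have h4 : (m.primeFactors.card : ℝ) ≤ 2 * Real.log n := by
    have : (m.primeFactors.card : ℝ) * (1 / 2) ≤ m.primeFactors.card * Real.log 2 :=
      mul_le_mul_of_nonneg_left hl2 (by positivity)
    linarith
  have h5 : ((X.filter (fun p : ℕ => C * (1 + Real.log n) ≤ (p : ℝ) ∧ p ∣ m)).card : ℝ) ≤ C * (1 + Real.log n) := by
    have h6 : ((X.filter (fun p : ℕ => C * (1 + Real.log n) ≤ (p : ℝ) ∧ p ∣ m)).card : ℝ) ≤ m.primeFactors.card := by
      exact_mod_cast h2
    nlinarith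
  refine h1.trans ?_
  rw [mul_one_div]
  exact (div_le_one hpos).2 h5

theorem exists_T (C R : ℝ) (hC : 200 ≤ C) : ∃ N₀ : ℕ, ∀ n : ℕ, N₀ ≤ n → ∃ T : Finset ℕ, (∀ l ∈ T, Adm C n l) ∧
    R ≤ ∑ l ∈ T, 1 / (l : ℝ) := by
  have hlim : Filter.Tendsto (fun n : ℕ => Real.log (Real.log n)) Filter.atTop Filter.atTop :=
    Real.tendsto_log_atTop.comp (Real.tendsto_log_atTop.comp tendsto_natCast_atTop_atTop)
  obtain ⟨N₀, hN₀⟩ := Filter.eventually_atTop.1
    ((hlim.eventually_ge_atTop (2 * (R + 7) + Real.log (3 * C))).and (Filter.eventually_ge_atTop 40000))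
  refine ⟨N₀, fun n hn => ?_⟩
  obtain ⟨h1, h2⟩ := hN₀ n hn
  classical
  set X : Finset ℕ := (n / 200 + 1).primesBelow with hX
  set c : ℝ := C * (1 + Real.log n) with hc
  have hnR : (40000 : ℝ) ≤ n := by exact_mod_cast h2
  have hlog1 : 1 ≤ Real.log n := by
    rw [Real.le_log_iff_exp_le (by linarith)]
    have := Real.exp_one_lt_d9
    linarith
  let T : Finset ℕ := X.filter (fun p : ℕ => c ≤ (p : ℝ) ∧ ¬ (p ∣ n ∨ p ∣ (n - 1) / 2 ∨ p ∣ (n + 1) / 2))
  have hcpos : 200 ≤ c := by nlinarith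
  refine ⟨T, ?_, ?_⟩
  · intro l hl
    rw [Finset.mem_filter] at hl
    obtain ⟨hl1, hl2, hl3⟩ := hl
    push Not at hl3
    have hlp := Nat.prime_of_mem_primesBelow hl1
    have hlt := Nat.lt_of_mem_primesBelow hl1
    have h200 : (200 : ℝ) ≤ l := hcpos.trans hl2
    have h200' : 200 ≤ l := by exact_mod_cast h200
    exact ⟨hlp, hlp.odd_of_ne_two (by omega), hl2, by omega, hl3⟩
  · -- the sums
    have hX' : ∀ p ∈ X, p.Prime := fun p hp => Nat.prime_of_mem_primesBelow hp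
    have e1 : S (n / 200 + 1) = ∑ p ∈ X.filter (fun p : ℕ => c ≤ (p : ℝ)), 1 / (p : ℝ) +
        ∑ p ∈ X.filter (fun p : ℕ => ¬ c ≤ (p : ℝ)), 1 / (p : ℝ) := (Finset.sum_filter_add_sum_filter_not _ _ _).symm
    have e2 : ∑ p ∈ X.filter (fun p : ℕ => ¬ c ≤ (p : ℝ)), 1 / (p : ℝ) ≤ S ⌈c⌉₊ := by
      apply Finset.sum_le_sum_of_subset_of_nonneg
      · intro p hp
        rw [Finset.mem_filter] at hp
        rw [Nat.primesBelow, Finset.mem_filter, Finset.mem_range]
        refine ⟨?_, hX' p hp.1⟩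
        rw [Nat.lt_ceil]
        exact not_le.1 hp.2
      · intro p _ _
        positivity
    have e3 : ∑ p ∈ X.filter (fun p : ℕ => c ≤ (p : ℝ)), 1 / (p : ℝ) ≤ ∑ l ∈ T, 1 / (l : ℝ) + 3 := by
      have hsub : X.filter (fun p : ℕ => c ≤ (p : ℝ)) ⊆ T ∪ ((X.filter (fun p : ℕ => c ≤ (p : ℝ) ∧ p ∣ n)) ∪
          ((X.filter (fun p : ℕ => c ≤ (p : ℝ) ∧ p ∣ (n - 1) / 2)) ∪ (X.filter (fun p : ℕ => c ≤ (p : ℝ) ∧ p ∣ (n + 1) / 2)))) := by
        intro p hp
        rw [Finset.mem_filter] at hp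
        simp only [Finset.mem_union, Finset.mem_filter, T]
        tauto
      have hun : ∀ A B : Finset ℕ, ∑ p ∈ A ∪ B, 1 / (p : ℝ) ≤ ∑ p ∈ A, 1 / (p : ℝ) + ∑ p ∈ B, 1 / (p : ℝ) := by
        intro A B
        rw [← Finset.sum_union_inter]
        have : 0 ≤ ∑ p ∈ A ∩ B, 1 / (p : ℝ) := Finset.sum_nonneg (fun p _ => by positivity)
        linarith
      have b1 := bad_le hC (n := n) (m := n) (by omega) le_rfl X hX'
      have b2 := bad_le hC (n := n) (m := (n - 1) / 2) (by omega) (by omega) X hX'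
      have b3 := bad_le hC (n := n) (m := (n + 1) / 2) (by omega) (by omega) X hX'
      refine (Finset.sum_le_sum_of_subset_of_nonneg hsub (fun p _ _ => by positivity)).trans ?_
      refine (hun _ _).trans ?_
      have u1 := hun (X.filter (fun p : ℕ => c ≤ (p : ℝ) ∧ p ∣ n))
          ((X.filter (fun p : ℕ => c ≤ (p : ℝ) ∧ p ∣ (n - 1) / 2)) ∪ (X.filter (fun p : ℕ => c ≤ (p : ℝ) ∧ p ∣ (n + 1) / 2)))
      have u2 := hun (X.filter (fun p : ℕ => c ≤ (p : ℝ) ∧ p ∣ (n - 1) / 2)) (X.filter (fun p : ℕ => c ≤ (p : ℝ) ∧ p ∣ (n + 1) / 2))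
      linarith
    have hN3 : 3 ≤ n / 200 + 1 := by omega
    have e4 := le_S hN3
    have hceil : (⌈c⌉₊ : ℝ) ≤ c + 1 := (Nat.ceil_lt_add_one (by linarith)).le
    have hceil2 : 2 ≤ ⌈c⌉₊ := by
      have : (200 : ℝ) ≤ (⌈c⌉₊ : ℝ) := hcpos.trans (Nat.le_ceil c)
      have : 200 ≤ ⌈c⌉₊ := by exact_mod_cast this
      omega
    have e5 := S_le hceil2
    -- asymptotics
    have f1 : Real.log (⌈c⌉₊ : ℝ) ≤ Real.log (3 * C) + Real.log (Real.log n) := by
      rw [← Real.log_mul (by positivity) (by positivity)]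
      apply Real.log_le_log
      · have : (2 : ℝ) ≤ (⌈c⌉₊ : ℝ) := by exact_mod_cast hceil2
        linarith
      · refine hceil.trans ?_
        rw [hc]
        nlinarith
    have f2 : Real.log n / 2 ≤ Real.log ((n / 200 + 1 : ℕ) : ℝ) := by
      have g1 : (n : ℝ) / 200 ≤ ((n / 200 + 1 : ℕ) : ℝ) := by
        rw [div_le_iff₀ (by norm_num)]
        have : n ≤ (n / 200 + 1) * 200 := by omega
        exact_mod_cast this
      have g2 : Real.sqrt n ≤ (n : ℝ) / 200 := by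
        rw [le_div_iff₀ (by norm_num)]
        have g3 : (200 : ℝ) ≤ Real.sqrt n := by
          rw [show (200 : ℝ) = Real.sqrt (200 ^ 2) by rw [Real.sqrt_sq (by norm_num)]]
          apply Real.sqrt_le_sqrt
          linarith
        have g4 : Real.sqrt n * Real.sqrt n = n := Real.mul_self_sqrt (by positivity)
        nlinarith
      rw [← Real.log_sqrt (by positivity)]
      apply Real.log_le_log _ (g2.trans g1)
      apply Real.sqrt_pos.2
      linarith
    have f3 : Real.log (Real.log n) - 1 ≤ Real.log (Real.log ((n / 200 + 1 : ℕ) : ℝ)) := by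
      have g1 : Real.log (Real.log n / 2) ≤ Real.log (Real.log ((n / 200 + 1 : ℕ) : ℝ)) :=
        Real.log_le_log (by linarith) f2
      rw [Real.log_div (by linarith) (by norm_num)] at g1
      have := Real.log_two_lt_d9
      linarith
    linarith

/-- greedy choice -/
theorem sel (T : Finset ℕ) (c : ℕ) (hc : 1 ≤ c) (hT : ∀ l ∈ T, 1 ≤ l) (K : ℝ) (hK : 0 < K)
    (h : K ≤ ∑ l ∈ T, 1 / ((c * l : ℕ) : ℝ)) : ∃ t : ℕ, K ≤ ∑ l ∈ T.filter (fun l => l < t), 1 / ((c * l : ℕ) : ℝ) ∧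
      ∑ l ∈ T.filter (fun l => l < t), 1 / ((c * l : ℕ) : ℝ) ≤ K + 1 := by
  classical
  have hex : ∃ t : ℕ, K ≤ ∑ l ∈ T.filter (fun l => l < t), 1 / ((c * l : ℕ) : ℝ) := by
    refine ⟨T.sup id + 1, ?_⟩
    have : T.filter (fun l => l < T.sup id + 1) = T := by
      apply Finset.filter_true_of_mem
      intro l hl
      have : l ≤ T.sup id := Finset.le_sup (f := id) hl
      omega
    rw [this]
    exact h
  refine ⟨Nat.find hex, Nat.find_spec hex, ?_⟩
  have h0 : Nat.find hex ≠ 0 := by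
    intro h0
    have := Nat.find_spec hex
    rw [h0] at this
    simp at this
    linarith
  obtain ⟨u, hu⟩ : ∃ u, Nat.find hex = u + 1 := ⟨Nat.find hex - 1, by omega⟩
  have h1 : ¬ K ≤ ∑ l ∈ T.filter (fun l => l < u), 1 / ((c * l : ℕ) : ℝ) := Nat.find_min hex (by omega)
  rw [hu]
  have h2 : T.filter (fun l => l < u + 1) ⊆ insert u (T.filter (fun l => l < u)) := by
    intro l hl
    rw [Finset.mem_filter] at hl
    rw [Finset.mem_insert, Finset.mem_filter]
    rcases Nat.lt_succ_iff_lt_or_eq.1 hl.2 with h | h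
    · exact Or.inr ⟨hl.1, h⟩
    · exact Or.inl h
  by_cases huT : u ∈ T
  · have h3 : ∑ l ∈ T.filter (fun l => l < u + 1), 1 / ((c * l : ℕ) : ℝ) ≤
        ∑ l ∈ insert u (T.filter (fun l => l < u)), 1 / ((c * l : ℕ) : ℝ) :=
      Finset.sum_le_sum_of_subset_of_nonneg h2 (fun _ _ _ => by positivity)
    rw [Finset.sum_insert (by simp)] at h3
    have h4 : 1 / ((c * u : ℕ) : ℝ) ≤ 1 := by
      have : 1 ≤ c * u := Nat.mul_pos hc (hT u huT)
      have : (1 : ℝ) ≤ ((c * u : ℕ) : ℝ) := by exact_mod_cast this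
      rw [div_le_one (by linarith)]
      exact this
    linarith
  · have h3 : T.filter (fun l => l < u + 1) = T.filter (fun l => l < u) := by
      apply Finset.filter_congr
      intro l hl
      have : l ≠ u := fun h => huT (h ▸ hl)
      omega
    rw [h3]
    linarith

/-- two sets of primes, far apart -/
theorem exists_sets (T : Finset ℕ) (hT : ∀ l ∈ T, 1 ≤ l) (K : ℝ) (hK : 0 < K) (a b : ℕ) (ha : 1 ≤ a) (hb : 1 ≤ b)
    (hs : a * (K + 1) + 16 + b * K ≤ ∑ l ∈ T, 1 / (l : ℝ)) : ∃ P Q : Finset ℕ, P ⊆ T ∧ Q ⊆ T ∧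
      (∀ l ∈ P, ∀ l' ∈ Q, 16 * l < l') ∧
      K ≤ ∑ l ∈ P, 1 / ((a * l : ℕ) : ℝ) ∧ ∑ l ∈ P, 1 / ((a * l : ℕ) : ℝ) ≤ K + 1 ∧
      K ≤ ∑ l ∈ Q, 1 / ((b * l : ℕ) : ℝ) ∧ ∑ l ∈ Q, 1 / ((b * l : ℕ) : ℝ) ≤ K + 1 := by
  classical
  have hscale : ∀ (c : ℕ) (_ : 1 ≤ c) (A : Finset ℕ), ∑ l ∈ A, 1 / (l : ℝ) = c * ∑ l ∈ A, 1 / ((c * l : ℕ) : ℝ) := by
    intro c hc A
    rw [Finset.mul_sum]
    apply Finset.sum_congr rfl
    intro l _
    have hc0 : (c : ℝ) ≠ 0 := by positivity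
    push_cast
    by_cases hl : (l : ℝ) = 0
    · rw [hl]; simp
    · field_simp
  have haR : (0 : ℝ) < a := by exact_mod_cast ha
  have hbR : (0 : ℝ) < b := by exact_mod_cast hb
  have h1 : K ≤ ∑ l ∈ T, 1 / ((a * l : ℕ) : ℝ) := by
    have h := hscale a ha T
    have : (a : ℝ) * K ≤ a * ∑ l ∈ T, 1 / ((a * l : ℕ) : ℝ) := by
      rw [← h]
      nlinarith
    exact le_of_mul_le_mul_left this haR
  obtain ⟨t, ht1, ht2⟩ := sel T a ha hT K hK h1
  have ht0 : 1 ≤ t := by
    by_contra h0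
    have : t = 0 := by omega
    subst this
    simp at ht1
    linarith
  set T' := T.filter (fun l => 16 * t ≤ l) with hT'
  have h2 : ∑ l ∈ T, 1 / (l : ℝ) ≤ ∑ l ∈ T.filter (fun l => l < t), 1 / (l : ℝ) + (16 + ∑ l ∈ T', 1 / (l : ℝ)) := by
    have hsub : T ⊆ T.filter (fun l => l < t) ∪ (T.filter (fun l => t ≤ l ∧ l < 16 * t) ∪ T') := by
      intro l hl
      simp only [Finset.mem_union, Finset.mem_filter, hT']
      have : l < t ∨ (t ≤ l ∧ l < 16 * t) ∨ 16 * t ≤ l := by omega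
      tauto
    have hun : ∀ A B : Finset ℕ, ∑ p ∈ A ∪ B, 1 / (p : ℝ) ≤ ∑ p ∈ A, 1 / (p : ℝ) + ∑ p ∈ B, 1 / (p : ℝ) := by
      intro A B
      rw [← Finset.sum_union_inter]
      have : 0 ≤ ∑ p ∈ A ∩ B, 1 / (p : ℝ) := Finset.sum_nonneg (fun p _ => by positivity)
      linarith
    have hmid : ∑ l ∈ T.filter (fun l => t ≤ l ∧ l < 16 * t), 1 / (l : ℝ) ≤ 16 := by
      have htR : (0 : ℝ) < t := by exact_mod_cast ht0
      calc ∑ l ∈ T.filter (fun l => t ≤ l ∧ l < 16 * t), 1 / (l : ℝ)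
          ≤ ∑ _l ∈ T.filter (fun l => t ≤ l ∧ l < 16 * t), 1 / (t : ℝ) := by
            apply Finset.sum_le_sum
            intro l hl
            rw [Finset.mem_filter] at hl
            exact one_div_le_one_div_of_le htR (by exact_mod_cast hl.2.1)
        _ = (T.filter (fun l => t ≤ l ∧ l < 16 * t)).card * (1 / (t : ℝ)) := by rw [Finset.sum_const, nsmul_eq_mul]
        _ ≤ (16 * t : ℕ) * (1 / (t : ℝ)) := by
            apply mul_le_mul_of_nonneg_right _ (by positivity)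
            have h3 : T.filter (fun l => t ≤ l ∧ l < 16 * t) ⊆ Finset.range (16 * t) := by
              intro l hl
              rw [Finset.mem_filter] at hl
              exact Finset.mem_range.2 hl.2.2
            have := Finset.card_le_card h3
            rw [Finset.card_range] at this
            exact_mod_cast this
        _ = 16 := by
            push_cast
            field_simp
    refine (Finset.sum_le_sum_of_subset_of_nonneg hsub (fun _ _ _ => by positivity)).trans ?_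
    refine (hun _ _).trans ?_
    have := hun (T.filter (fun l => t ≤ l ∧ l < 16 * t)) T'
    linarith
  have h3 : K ≤ ∑ l ∈ T', 1 / ((b * l : ℕ) : ℝ) := by
    have h4 := hscale a ha (T.filter (fun l => l < t))
    have h5 := hscale b hb T'
    have h6 : (a : ℝ) * ∑ l ∈ T.filter (fun l => l < t), 1 / ((a * l : ℕ) : ℝ) ≤ a * (K + 1) :=
      mul_le_mul_of_nonneg_left ht2 haR.le
    have h7 : (b : ℝ) * K ≤ b * ∑ l ∈ T', 1 / ((b * l : ℕ) : ℝ) := by
      rw [← h5]
      linarith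
    exact le_of_mul_le_mul_left h7 hbR
  obtain ⟨u, hu1, hu2⟩ := sel T' b hb (fun l hl => hT l (Finset.mem_filter.1 hl).1) K hK h3
  refine ⟨T.filter (fun l => l < t), T'.filter (fun l => l < u), Finset.filter_subset _ _,
    (Finset.filter_subset _ _).trans (Finset.filter_subset _ _), ?_, ht1, ht2, hu1, hu2⟩
  intro l hl l' hl'
  rw [Finset.mem_filter] at hl hl'
  have := (Finset.mem_filter.1 hl'.1).2
  omega

end Cfsg.Agent.H183.UI
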